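import Cfsg.Agent.H296.RI.SpU
import Cfsg.Agent.H484.RatB0.RowsO
import Cfsg.Agent.H314.RatB.OPlus
import Cfsg.Agent.H893.Sd.MemIff

/-!
# The Steinberg character in the principal `p`-block, `p` odd, `p ∣ q - 1` (helper749, for S4932)

* `StIn p r S` : an integer valued irreducible character of degree `|S|_r` in the principal `p`-block (for every maximal
  ideal);
* `stIn_of`, `stIn_of_cent` : from a root group datum;
* `stIn_psp`, `stIn_psu`, `stIn_oodd`, `stIn_ominus`, `stIn_oplus`.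

(The proofs are those of helper116, helper296, helper484, helper314 for the rows of S4891, with the degree kept.)
-/

set_option autoImplicit false
set_option linter.unusedSectionVars false

namespace Cfsg.Agent.H749.Bd

open Cfsg

universe u

/-- The Steinberg character lies in the principal `p`-block. -/
def StIn (p r : ℕ) (S : Type u) [Group S] : Prop :=
  ∃ χ : IrrCharacter S, (∀ M : Ideal AlgInt, IsPModular p M → χ ∈ principalBlock M S) ∧
    (∀ g, ∃ z : ℤ, (χ : S → ℂ) g = z) ∧ charDegree (χ : S → ℂ) = r ^ (Nat.card S).factorization r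

section rgd

open CoxeterSystem Cfsg.Agent.ChevalleyStructure.CoxeterGeom Cfsg.Agent.Tits.Roots Cfsg.Agent.Tits.Core
  Cfsg.Agent.Tits.Exchange Cfsg.Agent.Nodes.Reps Cfsg.Agent.Nodes.BNOf Cfsg.Agent.Nodes.StabComb
  Cfsg.Agent.Nodes.Bruhat Cfsg.Agent.Nodes.OppDec Cfsg.Agent.Nodes.LeviDec Cfsg.Agent.Nodes.NormalForm
  Cfsg.Agent.KFacts.RgdOpp Cfsg.Agent.KFacts.RgdAut Cfsg.Agent.KFacts.RgdDiag Cfsg.Agent.H554.RG
open Cfsg.Agent.H116.RatB0

variable {I W : Type*} {S : Type u} [Fintype I] [DecidableEq I] [Group W] [Group S] {M : CoxeterMatrix I}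
  {cs : CoxeterSystem M W} {A : I → I → ℤ} {h : IsCartan M A} {r : ℕ} {T : Subgroup S} {n : I → S}
  {X : (I → ℤ) → Subgroup S} (R : RGD cs h r T n X)

include R

/-- from the condition on the parabolic subgroups -/
theorem stIn_of [Finite W] [Finite S] [hr : Fact r.Prime] (hG : GG cs h T X = ⊤) {p : ℕ}
    [hp : Fact p.Prime] (hpr : p ≠ r) (hJ : ∀ J : Finset I, J ≠ Finset.univ → p ∣ (PJ cs h T X (J : Set I)).index ∨
      reg p (PJ cs h T X (J : Set I)) ≡ reg p (⊤ : Subgroup S) [MOD p]) : StIn p r S := by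
  have := Fintype.ofFinite S
  obtain ⟨M', hM⟩ := Blocks.Knorr.exists_isPModular p
  obtain ⟨χ, h1, h2, h3, -⟩ := exists_st R hG hpr hM hJ
  refine ⟨χ, fun M'' hM'' => (H893.Sd.mem_iff hM'' χ).2 ((H893.Sd.mem_iff hM χ).1 h1), h2, ?_⟩
  obtain ⟨Q, hQ⟩ := exists_sylow R hG
  rw [h3, ← hQ]
  exact Q.card_eq_multiplicity

/-- **from torus elements** -/
theorem stIn_of_cent [Finite W] [Finite S] [hr : Fact r.Prime] (hG : GG cs h T X = ⊤) {p : ℕ}
    [hp : Fact p.Prime] (hpr : p ≠ r) {Q : Subgroup S} (hQ : IsPGroup p Q) (hQT : Q ≤ T)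
    (hU : ∀ x, IsRoot cs h x → 0 ≤ x → ∀ u ∈ X x, (∀ q ∈ Q, q * u = u * q) → u = 1)
    (hW : ∀ (w : W) (k : S), Rp cs R.nsys w k → (∀ q ∈ Q, q * k = k * q) → w = 1) : StIn p r S :=
  stIn_of R hG hpr fun _ _ => Or.inr (reg_modEq_of_le hQ ((hQT.trans RGD.T_le_B).trans B_le_PJ)
    ((cent_le_B R hG hQT hU hW).trans B_le_PJ))

end rgd

section model

open CoxeterSystem Cfsg.Agent.ChevalleyStructure.CoxeterGeom Cfsg.Agent.Tits.Roots
  Cfsg.Agent.Nodes.Comb Cfsg.Agent.Nodes.Reps Cfsg.Agent.Nodes.BNOf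
  Cfsg.Agent.Nodes.RGDLib Cfsg.Agent.Nodes.TypeC
open Cfsg.Agent.Nodes Cfsg.Agent.Nodes.WittAll Cfsg.Agent.Nodes.WittU Cfsg.Agent.Nodes.WittInst
  Cfsg.Agent.Nodes.WittRoot
  Cfsg.Agent.TitsThree Cfsg.Agent.TitsThree.Siegel Cfsg.Agent.TitsThree.SiegelGen
  Cfsg.Agent.TitsThree.WittFrame Cfsg.Agent.TitsThree.WBridge Cfsg.Agent.TitsThree.WittWeyl
  Cfsg.Agent.TitsThree.FrameCN Cfsg.Agent.TitsThree.LineBorel
open Cfsg.Agent.Nodes.WittRGD (Tor mem_Tor nn nn_mem_sup rg_sr rg_neg_sr mono_nn)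
open Cfsg.Agent.Omega.ML.Ex.Lie2.SemiDat Cfsg.Agent.H742
open Cfsg.Agent.H519.Dl.WittTor (inv_apply_eq)
open Cfsg.Agent.H296.RI

variable {F : Type*} [Field F] {V : Type*} [AddCommGroup V] [Module F V] {H : HForm F V} {n : ℕ}
  {Fr : Frame H (Fin n)}

variable {K : Type u} [Group K] (M : Model Fr K) {r : ℕ}

set_option maxHeartbeats 1600000 in
/-- a model on a Witt frame, `t σ(t)` of order `p`, `p` odd -/
theorem stIn_model (hA : AmbT Fr r M.I) [Finite V] [hr : Fact r.Prime] [CharP F r] {p0 : Fr.Adm} (hp0 : p0.c ≠ 0)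
    (hn : 0 < n) [Finite K] {p : ℕ} [hp : Fact p.Prime] (hp2 : p ≠ 2) {t : F} (ht1 : (t * H.σ t) ^ p = 1)
    (ht2 : t * H.σ t ≠ 1) : StIn p r K := by
  have ht0 : t ≠ 0 := by
    rintro rfl
    rw [zero_mul, zero_pow hp.out.ne_zero] at ht1
    exact zero_ne_one ht1
  have hodd : Odd p := hp.out.odd_of_ne_two hp2
  have ho : orderOf (t * H.σ t) = p := orderOf_eq_prime ht1 ht2
  have ht4 : (t * H.σ t) ^ 2 ≠ 1 := by
    intro h
    have h1 := orderOf_dvd_of_pow_eq_one h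
    rw [ho, Nat.prime_dvd_prime_iff_eq hp.out Nat.prime_two] at h1
    exact hp2 h1
  have hpr : p ≠ r := by
    rintro rfl
    have h1 : (t * H.σ t - 1) ^ p = 0 := by
      rw [sub_pow_char, ht1, one_pow, sub_self]
    exact ht2 (sub_eq_zero.1 (pow_eq_zero_iff hp.out.ne_zero |>.1 h1))
  set cs := (CoxeterMatrix.B n).toCoxeterSystem with hcs
  have hW : Finite (CoxeterMatrix.B n).Group := finite_W cs
  have : Nonempty (Fin n) := ⟨⟨0, hn⟩⟩
  have R := rgdC_model M hA hp0 cs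
  set Q : Subgroup K := ((QQ hA.V0 M.I p).subgroupOf M.I).map M.φ with hQdef
  have hmem : ∀ a, M.φ ⟨dZ Fr a p0 t, dZ_mem M hA a p0 t⟩ ∈ Q := by
    intro a
    exact Subgroup.mem_map_of_mem _ (Subgroup.mem_subgroupOf.2 ⟨dZ_mem_Tor M hA hp0 ht0,
      fun v hv => dZ_V0 hp0 ht0 hA.V0 hv, dZ_pow hp0 ht0 hA.V0 ht1⟩)
  refine stIn_of_cent R (KFacts.RgdFilt.GG_eq_top (WittModel.G1_eq_top M hn cs)) hpr (Q := Q) ?_ ?_ ?_ ?_
  · exact (isPGroup_QQ.comap_of_injective M.I.subtype M.I.subtype_injective).map M.φ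
  · exact Subgroup.map_mono (fun x hx => hx.1)
  · intro x hx _ u hu hc
    obtain ⟨g, hg, h1, rfl⟩ := (WittModel.mem_X M).1 hu
    obtain ⟨a, b, hab, e⟩ := exists_of_isRoot cs hx
    rw [rg_eq Fr hab e] at h1
    rcases hab with h | rfl
    · rw [PG_ne Fr h] at h1
      obtain ⟨s, rfl⟩ := h1
      have h2 := fpf_X M hA h hp0 ht0 ht2 (hc _ (hmem a))
      subst h2
      have h3 : (⟨Fr.X a b 0, hg⟩ : M.I) = 1 := Subtype.ext (Fr.X_zero _ _)
      rw [h3, map_one]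
    · rw [PG_self] at h1
      obtain ⟨s, rfl⟩ := h1
      have h2 := fpf_Z M hA hp0 ht0 ht2 ht4 (hc _ (hmem a))
      subst h2
      have h3 : (⟨Fr.Z a 1, hg⟩ : M.I) = 1 := Subtype.ext (Fr.Z_one _)
      rw [h3, map_one]
  · intro w k hk hc
    obtain ⟨π, g, hg, hm, hrp, hneg, hee⟩ := exists_mono M hA hp0 cs w
    obtain ⟨τ', hτ', hτ⟩ := hrp.unique hk
    obtain ⟨τ, hτI⟩ := τ'
    have hτT : τ ∈ Tor Fr M.I := Subgroup.mem_subgroupOf.1 hτ'
    have hk' : k = M.φ ⟨g * τ, mul_mem hg hτI⟩ := by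
      have h1 : M.φ ⟨g * τ, mul_mem hg hτI⟩ = M.φ ⟨g, hg⟩ * M.φ ⟨τ, hτI⟩ := by
        rw [← map_mul]
        rfl
      rw [h1, hτ, mul_inv_cancel_left]
    have hm' : Mono Fr (g * τ) π := hm.mul hτT.2
    -- the eigenvalues
    have hfix : ∀ i : Fin n, π (i, true) = (i, true) := by
      intro i
      set a : Fin n × Bool := (i, true) with ha
      set d := dZ Fr a p0 t with hd
      set N := t * H.σ t with hN
      have hN0 : N ≠ 0 := by
        intro h0
        rw [h0, zero_pow hp.out.ne_zero] at ht1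
        exact zero_ne_one ht1
      have hI : (g * τ)⁻¹ * d * (g * τ) * d⁻¹ ∈ M.I :=
        mul_mem (mul_mem (mul_mem (inv_mem (mul_mem hg hτI)) (dZ_mem M hA a p0 t)) (mul_mem hg hτI))
          (inv_mem (dZ_mem M hA a p0 t))
      have h1 : M.φ ⟨(g * τ)⁻¹ * d * (g * τ) * d⁻¹, hI⟩ = 1 := by
        have h2 : (⟨(g * τ)⁻¹ * d * (g * τ) * d⁻¹, hI⟩ : M.I) = ⟨g * τ, mul_mem hg hτI⟩⁻¹ *
            ⟨d, dZ_mem M hA a p0 t⟩ * ⟨g * τ, mul_mem hg hτI⟩ * ⟨d, dZ_mem M hA a p0 t⟩⁻¹ := rfl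
        rw [h2, map_mul, map_mul, map_mul, map_inv, map_inv, ← hk', mul_assoc (k⁻¹), hc _ (hmem a), inv_mul_cancel_left,
          mul_inv_cancel]
      -- eigenvalues of `d`
      have hl : ∀ z : Fin n × Bool, ∃ m : ℤ, d (Fr.b z) = (N ^ m) • Fr.b z ∧ d (Fr.b (neg z)) = (N ^ (-m)) • Fr.b (neg z) ∧
          (z = a → m = 1) ∧ (z ≠ a → m = 0 ∨ m = -1) := by
        intro z
        by_cases hx : z.1 = a.1
        · rcases WittRGD.eq_or_ng hx with rfl | rfl
          · refine ⟨1, ?_, ?_, fun _ => rfl, fun h => absurd rfl h⟩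
            · rw [zpow_one]
              exact dZ_self hp0 ht0
            · rw [zpow_neg, zpow_one]
              exact dZ_neg hp0 ht0
          · refine ⟨-1, ?_, ?_, fun h => ?_, fun h => Or.inr rfl⟩
            · rw [zpow_neg, zpow_one]
              exact dZ_neg hp0 ht0
            · rw [_root_.neg_neg, zpow_one]
              have h3 : neg (ng a) = a := WittFrame.neg_neg a
              rw [h3]
              exact dZ_self hp0 ht0
            · exact absurd (congrArg Prod.snd h) (by simp [ha, ng])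
        · refine ⟨0, ?_, ?_, fun h => absurd (congrArg Prod.fst h) hx, fun _ => Or.inl rfl⟩
          · rw [zpow_zero, one_smul]
            exact dZ_of_ne hx
          · rw [_root_.neg_zero, zpow_zero, one_smul]
            exact dZ_of_ne (z := neg z) hx
      obtain ⟨m0, e1, e2, e3, -⟩ := hl a
      obtain ⟨m1, f1, f2, -, f4⟩ := hl (π a)
      have hm0 := e3 rfl
      subst hm0
      by_contra hcon
      -- the scalar on `b_a + b_{-a}`
      obtain ⟨c, hcs'⟩ := M.ker (Fr.b a + Fr.b (neg a)) _ h1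
      have hdinv1 : d⁻¹ (Fr.b a) = (N ^ (-1 : ℤ)) • Fr.b a := inv_apply_eq (by
        rw [map_smul, e1, smul_smul, ← zpow_add₀ hN0]; norm_num)
      have hdinv2 : d⁻¹ (Fr.b (neg a)) = (N ^ (1 : ℤ)) • Fr.b (neg a) := inv_apply_eq (by
        rw [map_smul, e2, smul_smul, ← zpow_add₀ hN0]; norm_num)
      obtain ⟨l1, hl1, g1⟩ := hm' a
      obtain ⟨l2, hl2, g2⟩ := hm' (neg a)
      rw [hneg] at g2
      have k1 : ((g * τ)⁻¹ * d * (g * τ) * d⁻¹) (Fr.b a) = (N ^ (m1 - 1)) • Fr.b a := by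
        rw [mul_apply', mul_apply', mul_apply', hdinv1, map_smul, map_smul, map_smul, g1, map_smul, f1,
          map_smul, map_smul, (inv_apply_eq (h := by rw [map_smul, g1, smul_smul, inv_mul_cancel₀ hl1, one_smul]) :
            (g * τ)⁻¹ (Fr.b (π a)) = l1⁻¹ • Fr.b a), smul_smul, smul_smul, smul_smul]
        congr 1
        rw [sub_eq_add_neg, zpow_add₀ hN0]
        field_simp
      have k2 : ((g * τ)⁻¹ * d * (g * τ) * d⁻¹) (Fr.b (neg a)) = (N ^ (1 - m1)) • Fr.b (neg a) := by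
        rw [mul_apply', mul_apply', mul_apply', hdinv2, map_smul, map_smul, map_smul, g2, map_smul, f2,
          map_smul, map_smul, (inv_apply_eq (h := by rw [map_smul, g2, smul_smul, inv_mul_cancel₀ hl2, one_smul]) :
            (g * τ)⁻¹ (Fr.b (neg (π a))) = l2⁻¹ • Fr.b (neg a)), smul_smul, smul_smul, smul_smul]
        congr 1
        rw [sub_eq_add_neg, zpow_add₀ hN0]
        field_simp
      have hcs2 : ((g * τ)⁻¹ * d * (g * τ) * d⁻¹) (Fr.b a + Fr.b (neg a)) = c • (Fr.b a + Fr.b (neg a)) := hcs'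
      rw [map_add, k1, k2, smul_add] at hcs2
      have j1 := congrArg (fun v => H.h v (Fr.b a)) hcs2
      have j2 := congrArg (fun v => H.h v (Fr.b (neg a))) hcs2
      simp only [H.add_left, H.smul_left, Fr.hb_self, Fr.hb_neg_self, mul_zero, zero_add] at j1
      simp only [H.add_left, H.smul_left, Fr.hb_self, Fr.hb_self_neg, mul_zero, add_zero] at j2
      have j3 := mul_right_cancel₀ (Fr.η_ne _) j1
      have j4 := mul_right_cancel₀ (Fr.η_ne _) j2
      have j5 : N ^ (m1 - 1) = N ^ (1 - m1) := j4.trans j3.symm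
      have j6 : N ^ (2 * (m1 - 1)) = 1 := by
        have : 2 * (m1 - 1) = (m1 - 1) - (1 - m1) := by ring
        rw [this, zpow_sub₀ hN0, j5, div_self (zpow_ne_zero _ hN0)]
      have j7 : (p : ℤ) ∣ 2 * (m1 - 1) := by
        have hu : (Units.mk0 N hN0) ^ (2 * (m1 - 1)) = 1 := by
          apply Units.ext
          rw [Units.val_zpow_eq_zpow_val, Units.val_mk0, j6, Units.val_one]
        rw [← ho, ← Units.val_mk0 hN0, orderOf_units]
        exact orderOf_dvd_iff_zpow_eq_one.2 hu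
      rcases f4 hcon with rfl | rfl
      · have : (p : ℤ) ∣ 2 := by
          have := j7
          norm_num at this
          exact this
        have h8 : p ∣ 2 := by exact_mod_cast this
        exact hp2 ((Nat.prime_dvd_prime_iff_eq hp.out Nat.prime_two).1 h8)
      · have : (p : ℤ) ∣ 2 ^ 2 := by
          have := j7
          norm_num at this
          norm_num
          exact this
        have h8 : p ∣ 2 ^ 2 := by exact_mod_cast this
        exact hp2 ((Nat.prime_dvd_prime_iff_eq hp.out Nat.prime_two).1 (hp.out.dvd_of_dvd_pow h8))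
    refine ChevalleyStructure.CoxeterGeom.eq_one_of_fix cs (isCartan n) w fun i => ee_injective ?_
    have h1 := hee (sr i) (i, true) (nx i) (ee_sr i)
    change ee (rep cs (isCartan n) w (sr i)) = ee (sr i)
    rw [h1, ee_sr, hfix, bt]
    congr 2
    unfold nx
    split_ifs with h
    · have h2 := hneg (⟨(i : ℕ) + 1, h⟩, true)
      rw [hfix] at h2
      exact h2
    · exact hfix i

/-- the same, with an element of order `p` of the fixed field of `σ` -/
theorem stIn_model_fix (hA : AmbT Fr r M.I) [Finite V] [hr : Fact r.Prime] [CharP F r] {p0 : Fr.Adm}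
    (hp0 : p0.c ≠ 0) (hn : 0 < n) [Finite K] {p : ℕ} [hp : Fact p.Prime] (hp2 : p ≠ 2) {t : F} (ht : t ^ p = 1)
    (ht1 : t ≠ 1) (htσ : H.σ t = t) : StIn p r K := by
  refine stIn_model M hA hp0 hn hp2 (t := t) (by rw [htσ, mul_pow, ht, one_mul]) ?_
  rw [htσ, ← pow_two]
  intro h
  have ho : orderOf t = p := orderOf_eq_prime ht ht1
  have h1 := orderOf_dvd_of_pow_eq_one h
  rw [ho, Nat.prime_dvd_prime_iff_eq hp.out Nat.prime_two] at h1
  exact hp2 h1


end model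

section Row

open CoxeterSystem Cfsg.Agent.ChevalleyStructure.CoxeterGeom Cfsg.Agent.Tits.Roots
  Cfsg.Agent.Nodes.Comb Cfsg.Agent.Nodes.Reps Cfsg.Agent.Nodes.BNOf
  Cfsg.Agent.Nodes.RGDLib Cfsg.Agent.Nodes.TypeC
open Cfsg.Agent.Nodes Cfsg.Agent.Nodes.WittAll Cfsg.Agent.Nodes.WittU Cfsg.Agent.Nodes.WittInst
  Cfsg.Agent.Nodes.WittRoot
  Cfsg.Agent.TitsThree Cfsg.Agent.TitsThree.Siegel Cfsg.Agent.TitsThree.SiegelGen
  Cfsg.Agent.TitsThree.WittFrame Cfsg.Agent.TitsThree.WBridge Cfsg.Agent.TitsThree.WittWeyl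
  Cfsg.Agent.TitsThree.FrameCN
open Cfsg.Agent.H50.Her Cfsg.Agent.H716.RGDAb Cfsg.Agent.Omega.ML.Ex.Typ Cfsg.Agent.H742
open Cfsg.Agent.LieClassical.HermBasic Cfsg.Agent.TitsThree.KSideU
open Cfsg.Agent.H296.RI

universe v

/-- **`PSp_{2m}(q)`, `p ∣ q - 1`** -/
theorem stIn_psp {F : Type v} [Field F] [Fintype F] {r : ℕ} [hr : CharP F r] {m : ℕ} (hm : 1 ≤ m) {p : ℕ}
    [hp : Fact p.Prime] (hp2 : p ≠ 2) (hd : p ∣ Fintype.card F - 1) : StIn p r (PSp m F) := by
  have : Fact r.Prime := ⟨CharP.char_is_prime F r⟩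
  obtain ⟨t, ht, ht1⟩ := exists_zeta (F := F) hd
  have hA := AmbT.of_amb (amb_Sp (F := F) (m := m)) r
  exact stIn_model_fix (KInstSp.model m F) hA (p0 := SpIdent.adm 1) one_ne_zero hm hp2 ht ht1 rfl

/-- **`PSU_n(q)`, `p ∣ q - 1`** -/
theorem stIn_psu {F : Type v} [Field F] [Fintype F] {r : ℕ} [hr : CharP F r] {N q p : ℕ} [hp : Fact p.Prime]
    (hp2 : p ≠ 2) (hN : 3 ≤ N) (hF : Fintype.card F = q ^ 2) (hd : p ∣ q - 1) : StIn p r (PSU N F q) := by
  have : Fact r.Prime := ⟨CharP.char_is_prime F r⟩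
  have hq1 : 1 ≤ q := by
    rcases Nat.eq_zero_or_pos q with h | h
    · rw [h] at hF
      simp at hF
    · exact h
  obtain ⟨t, ht, ht1⟩ := exists_zeta (F := F) (p := p) (by
    rw [hF]
    refine hd.trans ?_
    have := Nat.sub_dvd_pow_sub_pow q 1 2
    rwa [one_pow] at this)
  have htq : t ^ q = t := by
    obtain ⟨c, hc⟩ := hd
    have : q = p * c + 1 := by omega
    rw [this, pow_succ, pow_mul, ht, one_pow, one_mul]
  rcases Nat.even_or_odd' N with ⟨m, rfl | rfl⟩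
  · obtain ⟨W, -⟩ := exists_wframe_even hF (rfl : 2 * m = 2 * m)
    obtain ⟨p0, hp0, -⟩ := exists_adm hF W
    exact stIn_model_fix (KInstU.model hF (by omega) W) (AmbT.of_amb (amb_U hF W) r) hp0 (by omega) hp2 ht ht1 htq
  · obtain ⟨W, -⟩ := exists_wframe_odd hF (rfl : 2 * m + 1 = 2 * m + 1)
    obtain ⟨p0, hp0, -⟩ := exists_adm hF W
    exact stIn_model_fix (KInstU.model hF (by omega) W) (AmbT.of_amb (amb_U hF W) r) hp0 (by omega) hp2 ht ht1 htq

end Row

section RowO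

open Cfsg.Agent.Nodes.WittAll Cfsg.Agent.Nodes.WittInst
open Cfsg.Agent.TitsThree Cfsg.Agent.TitsThree.Siegel Cfsg.Agent.TitsThree.SiegelGen
  Cfsg.Agent.TitsThree.WittFrame Cfsg.Agent.TitsThree.WBridge Cfsg.Agent.TitsThree.WittWeyl
  Cfsg.Agent.TitsThree.FrameCN
open QuadraticMap
open Cfsg.Agent.LieClassical Cfsg.Agent.LieClassical.OrthCore Cfsg.Agent.LieClassical.OrthTrans
open Cfsg.Agent.LieClassical.OrthSimple Cfsg.Agent.LieClassical.OrthFinite
open Cfsg.Agent.LieClassical.OrthForms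
open Cfsg.Agent.TitsThree.KSideO Cfsg.Agent.TitsThree.StdData
open Cfsg.Agent.H484.RatB0 (two_ne)
open Cfsg.Agent.H296.RI (exists_zeta)

universe v

variable {p : ℕ} [hp : Fact p.Prime]

/-- **`PΩ_{2m+1}(q)`**, `p ∣ q - 1` -/
theorem stIn_oodd (hp2 : p ≠ 2) {F : Type v} [Field F] [Fintype F] {r : ℕ} [hr : CharP F r] {m : ℕ} (hm : 2 ≤ m)
    (ho : Odd (Fintype.card F)) (hd : p ∣ Fintype.card F - 1) : StIn p r (POmega F (quadFormOdd m F)) := by
  classical
  have hr' : Fact r.Prime := ⟨CharP.char_is_prime F r⟩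
  have h2 := two_ne ho
  obtain ⟨t, ht, ht1⟩ := exists_zeta (F := F) hd
  rw [← coe_oddForm]
  have hG : Good (oddForm m F) := by
    apply good_of_finite (nondeg_oddForm m F h2)
    rw [Module.finrank_fintype_fun_eq_card, Fintype.card_sum, Fintype.card_sum, Fintype.card_fin,
      Fintype.card_unit]
    omega
  have hp' : ((embOdd m F).ngt ⟨1, -1 ^ 2, rfl⟩).c ≠ 0 := by
    change (1 : F)⁻¹ * (-1 ^ 2) ≠ 0
    simp
  exact stIn_model_fix (model (wodd m F) hG ⟨_, hp'⟩) (AmbT.of_amb (amb_O_of_two _ h2) r) hp' (by omega) hp2 ht ht1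
    rfl

/-- **`PΩ⁻_{2m+2}(q)`**, `p ∣ q - 1` -/
theorem stIn_ominus' (hp2 : p ≠ 2) {F : Type v} [Field F] [Fintype F] {r : ℕ} [hr : CharP F r] (a b : F)
    (hab : ∀ z₁ z₂ : F, z₁ ^ 2 + a * z₁ * z₂ + b * z₂ ^ 2 = 0 → z₁ = 0 ∧ z₂ = 0) {m : ℕ} (hm : 2 ≤ m)
    (hd : p ∣ Fintype.card F - 1) : StIn p r (POmega F (quadFormMinus m F a b)) := by
  classical
  have hr' : Fact r.Prime := ⟨CharP.char_is_prime F r⟩
  obtain ⟨t, ht, ht1⟩ := exists_zeta (F := F) hd
  rw [← coe_minusForm]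
  have hG : Good (minusForm m F a b) := by
    apply good_of_finite (nondeg_minusForm m F a b hab)
    rw [Module.finrank_fintype_fun_eq_card, Fintype.card_sum, Fintype.card_sum, Fintype.card_fin,
      Fintype.card_fin]
    omega
  have hp' : ((embMinus m F a b hab).ngt ⟨(1, 0), -nf a b (1, 0), rfl⟩).c ≠ 0 := by
    change (1 : F)⁻¹ * (-nf a b (1, 0)) ≠ 0
    simp [nf]
  have hA : AmbT (toFrame (wminus m F a b hab)) r (E (minusForm m F a b)) := by
    by_cases h2 : (2 : F) = 0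
    · have hp2 : r = 2 := by
        have h3 : CharP F 2 := CharTwo.of_one_ne_zero_of_two_eq_zero one_ne_zero h2
        exact CharP.eq F hr h3
      subst hp2
      exact ambT_O _ fun g hg hg2 hb => fixp_minus a b hab h2 hm hG hg hg2 hb
    · exact AmbT.of_amb (amb_O_of_two _ h2) r
  exact stIn_model_fix (model (wminus m F a b hab) hG ⟨_, hp'⟩) hA hp' (by omega) hp2 ht ht1 rfl

/-- **`PΩ⁻_{2m}(q)`**, `p ∣ q - 1` -/
theorem stIn_ominus (hp2 : p ≠ 2) {F : Type v} [Field F] [Fintype F] {r : ℕ} [hr : CharP F r] (a b : F)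
    (hab : ∀ z₁ z₂ : F, z₁ ^ 2 + a * z₁ * z₂ + b * z₂ ^ 2 = 0 → z₁ = 0 ∧ z₂ = 0) {m : ℕ} (hm : 4 ≤ m)
    (hd : p ∣ Fintype.card F - 1) : StIn p r (POmega F (quadFormMinus (m - 1) F a b)) :=
  stIn_ominus' hp2 a b hab (by omega) hd

end RowO

section RowPlus

open Cfsg
open CoxeterSystem Cfsg.Agent.ChevalleyStructure.CoxeterGeom Cfsg.Agent.Tits.Roots
open Cfsg.Agent.Nodes.TypeC (wt wt_apply ng ng_ng ng_fst ng_snd wt_ng)
open Cfsg.Agent.Nodes.TypeD
open Cfsg.Agent.Nodes.Comb Cfsg.Agent.Nodes.Reps Cfsg.Agent.Nodes.WittRoot Cfsg.Agent.Nodes.BNOf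
  Cfsg.Agent.Nodes.RGDLib
open Cfsg.Agent.Nodes
open Cfsg.Agent.Nodes.WittRGD (Tor mem_Tor not_prop b_ne_zero eq_or_ng)
open Cfsg.Agent.TitsThree Cfsg.Agent.TitsThree.Siegel Cfsg.Agent.TitsThree.WittFrame Cfsg.Agent.TitsThree.WittWeyl
open Cfsg.Agent.H519.Dl.WittTor (dX dX_x dX_y dX_neg_x dX_neg_y dX_of_ne dX_V0 dX_eig dX_pow)
open Cfsg.Agent.H314.RatB.OPlus
open QuadraticMap
open Cfsg.Agent.Nodes.WittInst Cfsg.Agent.LieClassical Cfsg.Agent.LieClassical.OrthCore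
  Cfsg.Agent.LieClassical.OrthForms Cfsg.Agent.LieClassical.OrthSimple Cfsg.Agent.LieClassical.OrthFinite
open Cfsg.Agent.TitsThree.KSideO Cfsg.Agent.TitsThree.StdData Cfsg.Agent.TitsThree.WBridge
  Cfsg.Agent.TitsThree.SiegelGen

universe v

variable {p : ℕ} [Fact p.Prime]

/-- **`PΩ⁺`, `p ∣ q - 1`** -/
theorem stIn_oplus' (hp2 : p ≠ 2) {F : Type v} [Field F] [Fintype F] {r : ℕ} [hr : CharP F r] {n : ℕ} (hn : 1 ≤ n)
    (hd : p ∣ Fintype.card F - 1) : StIn p r (POmega F (quadFormPlus (n + 2) F)) := by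
  classical
  have hpp : p.Prime := Fact.out
  have hrp : Fact r.Prime := ⟨CharP.char_is_prime F r⟩
  have hpr : p ≠ r := by
    rintro rfl
    obtain ⟨k, -, hk⟩ := FiniteField.card F p
    have h1 : p ∣ Fintype.card F := hk ▸ dvd_pow_self p k.ne_zero
    have h2 := (Nat.dvd_sub h1 hd)
    rw [Nat.sub_sub_self Fintype.card_pos] at h2
    exact hpp.one_lt.ne' (Nat.dvd_one.1 h2)
  obtain ⟨ζ, hζ⟩ : ∃ ζ : Fˣ, orderOf ζ = p :=
    exists_prime_orderOf_dvd_card p (by rw [Fintype.card_units]; exact hd)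
  have ht : (ζ : F) ≠ 0 := ζ.ne_zero
  have htp : (ζ : F) ^ p = 1 := by
    rw [← Units.val_pow_eq_pow_val, ← hζ, pow_orderOf_eq_one, Units.val_one]
  have ht2 : (ζ : F) ^ 2 ≠ 1 := by
    intro h
    have h1 : ζ ^ 2 = 1 := Units.ext (by rw [Units.val_pow_eq_pow_val, h, Units.val_one])
    have h2 := orderOf_dvd_of_pow_eq_one h1
    rw [hζ] at h2
    exact hp2 ((Nat.prime_dvd_prime_iff_eq hpp Nat.prime_two).1 h2)
  rw [← coe_plusForm]
  have hG : OrthTrans.Good (plusForm (n + 2) F) := by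
    apply good_of_finite (nondeg_plusForm (n + 2) F)
    rw [Module.finrank_fintype_fun_eq_card, Fintype.card_sum, Fintype.card_fin]
    omega
  let cs := (M n).toCoxeterSystem
  have : Finite (M n).Group := finite_W cs
  have R := rgdD_model (wplus (n + 2) F) hG (amb_plus _) (adm_plus _) (p := r) cs
  have hG1 := G1D_eq_top (wplus (n + 2) F) (toPOmega hG) (toPOmega_surjective hG) (adm_plus _) cs
  have hker : ∀ g : E (plusForm (n + 2) F), toPOmega hG g = 1 → ∃ a : F, ∀ v, g.1 v = a • v := fun g hg =>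
    scalar_of_center hG (center_of_toPOmega hG hg)
  set T : Subgroup (POmega F ⇑(plusForm (n + 2) F)) :=
    ((Tor (toFrame (wplus (n + 2) F)) (E (plusForm (n + 2) F))).subgroupOf _).map (toPOmega hG) with hT
  have hTc : ∀ s ∈ T, ∀ t ∈ T, s * t = t * s := by
    rintro _ ⟨s, hs, rfl⟩ _ ⟨t, ht, rfl⟩
    rw [← map_mul, ← map_mul]
    congr 1
    refine Subtype.ext (H716.RGDAb.tor_comm_of (amb_plus (F := F) (n + 2)).V0 (Subgroup.mem_subgroupOf.1 hs)
      (Subgroup.mem_subgroupOf.1 ht) fun w hw => ?_)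
    have hw0 : w = 0 := (Submodule.mem_bot F).1 hw
    rw [hw0, map_zero, map_zero, map_zero]
  let Q : Subgroup (POmega F ⇑(plusForm (n + 2) F)) :=
    { carrier := {x | x ∈ T ∧ x ^ p = 1}
      mul_mem' := by
        rintro a b ⟨ha, ha1⟩ ⟨hb, hb1⟩
        refine ⟨mul_mem ha hb, ?_⟩
        rw [(show Commute a b from hTc a ha b hb).mul_pow, ha1, hb1, one_mul]
      one_mem' := ⟨one_mem _, one_pow _⟩
      inv_mem' := by
        rintro a ⟨ha, ha1⟩
        exact ⟨inv_mem ha, by rw [inv_pow, ha1, inv_one]⟩ }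
  have hmem : ∀ x y : Fin (n + 2) × Bool, x.1 ≠ y.1 →
      toPOmega hG ⟨dX (toFrame (wplus (n + 2) F)) x y (ζ : F), dX_mem (amb_plus (F := F) (n + 2)) x y _⟩ ∈ Q := by
    intro x y h
    refine ⟨Subgroup.mem_map_of_mem _ (Subgroup.mem_subgroupOf.2 (dX_mem_Tor (amb_plus (F := F) (n + 2)) h ht)), ?_⟩
    rw [← map_pow]
    have h1 : (⟨dX (toFrame (wplus (n + 2) F)) x y (ζ : F), dX_mem (amb_plus (F := F) (n + 2)) x y _⟩ :
        E (plusForm (n + 2) F)) ^ p = 1 := Subtype.ext (dX_pow (amb_plus (F := F) (n + 2)).V0 h ht htp)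
    rw [h1, map_one]
  have hGG : Bruhat.GG cs (isCartan n) T (XD (wplus (n + 2) F) (toPOmega hG)) = ⊤ := by
    rw [eq_top_iff, ← hG1]
    exact le_sup_right
  refine stIn_of_cent R hGG hpr (Q := Q) ?_ (fun x hx => hx.1) ?_ ?_
  · intro x
    exact ⟨1, Subtype.ext (by rw [pow_one]; exact x.2.2)⟩
  · intro x hx _ u hu hc
    obtain ⟨a, b, hab, e⟩ := exists_of_isRoot cs hx
    obtain ⟨g, hg, rfl⟩ := hu
    have h1 := Subgroup.mem_subgroupOf.1 hg
    rw [WittRGDD.rg_eq (toFrame (wplus (n + 2) F)) hab e] at h1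
    obtain ⟨s, hs⟩ := h1
    have h2 : g = ⟨(toFrame (wplus (n + 2) F)).X a b s, (amb_plus (F := F) (n + 2)).X_mem _ _ _⟩ :=
      Subtype.ext hs
    subst h2
    have h3 := fpf_X (toPOmega hG) (amb_plus (F := F) (n + 2)) hker hab ht ht2 (hc _ (hmem a b hab))
    subst h3
    have h4 : (⟨(toFrame (wplus (n + 2) F)).X a b 0, (amb_plus (F := F) (n + 2)).X_mem _ _ _⟩ :
        E (plusForm (n + 2) F)) = 1 := Subtype.ext ((toFrame (wplus (n + 2) F)).X_zero _ _)
    rw [h4, map_one]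
  · intro w k hk hc
    exact eq_one_of_comm (toPOmega hG) (amb_plus (F := F) (n + 2)) hker hn (fun _ => rfl)
      (hpp.odd_of_ne_two hp2) ht ht2 htp cs R.nsys hk fun x y h => hc _ (hmem x y h)

/-- **`PΩ⁺`, `p ∣ q - 1`** -/
theorem stIn_oplus (hp2 : p ≠ 2) {F : Type v} [Field F] [Fintype F] {r : ℕ} [hr : CharP F r] {m : ℕ} (hm : 4 ≤ m)
    (hd : p ∣ Fintype.card F - 1) : StIn p r (POmega F (quadFormPlus m F)) := by
  obtain ⟨n, rfl⟩ : ∃ n, m = n + 2 := ⟨m - 2, by omega⟩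
  exact stIn_oplus' hp2 (by omega) hd


end RowPlus

end Cfsg.Agent.H749.Bd
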